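import Cfsg.Agent.H741.Lb.Defs
import Cfsg.Agent.H666.Clif.P2

/-!
# S4879, the row `F₄(q)`, `p = 7`: the interface between the pieces (helper23)

* `NData` : the integral rows of the characters of a subgroup `N` of index 2 at an element `x` of order 7
  (piece F2a produces it, piece F2b uses it);
* `F2a`, `F2b` : the statements of the two pieces.
-/

set_option autoImplicit false

namespace Cfsg.Agent.H23.LB

open Cfsg Subgroup Cfsg.Agent.H666.Clif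

universe u

/-- the rows of the characters of `N` (`s₀ ∉ N`; `sg` is the conjugation of the characters of `N` by `s₀`) -/
structure NData {G : Type u} [Group G] (N : Subgroup G) (s₀ : G) (B : Set (IrrCharacter G))
    (BN : Set (IrrCharacter N)) (qN : IrrCharacter N → Fin 3 → ℤ) : Prop where
  zero : ∀ θ, θ ∉ BN → ∀ i, qN θ i = 0
  gram : ∀ [Fintype (IrrCharacter N)] (i j : Fin 3), ∑ θ, qN θ i * qN θ j = 7 * ((if i = j then 1 else 0) + 2)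
  orth : ∀ [Fintype (IrrCharacter N)] (sg : IrrCharacter N → IrrCharacter N),
    (∀ (θ : IrrCharacter N) (n n' : N), (n' : G) = s₀ * n * s₀⁻¹ → (sg θ : N → ℂ) n = (θ : N → ℂ) n') →
    ∀ i j, ∑ θ, qN θ i * qN (sg θ) j = 0
  cong : ∀ θ ∈ BN, (7 : ℤ) ∣ qN θ 0 + qN θ 1 + qN θ 2 - (charDegree (θ : N → ℂ) : ℤ)
  cover : ∀ (χ : IrrCharacter G) (θ : IrrCharacter N), Ov N χ θ → (χ ∈ B ↔ θ ∈ BN)

/-- **Piece F2a** (helper283). -/
def F2a (M : Ideal AlgInt) : Prop :=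
  ∀ (G : Type u) [Group G] [Finite G] (P : Sylow 7 G), Nat.card P = 7 ^ 2 →
    (∀ x ∈ (P : Subgroup G), x ^ 7 = 1) → ∀ x : G, x ∈ (P : Subgroup G) → x ≠ 1 →
    (centralizer ((P : Subgroup G) : Set G)).relIndex
      (normalizer ((P : Subgroup G) : Set G) ⊓ centralizer ({x} : Set G)) = 3 →
    ∀ (N : Subgroup G) [N.Normal], N.index = 2 →
    (∀ k : ℕ, ¬ 7 ∣ k → ∃ n ∈ N, n * x * n⁻¹ = x ^ k) →
    (∀ g ∉ N, ∀ n ∈ N, g * x * g⁻¹ ≠ n * x * n⁻¹) → ∀ s₀ ∉ N,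
    ∃ qN : IrrCharacter N → Fin 3 → ℤ, NData N s₀ (principalBlock M G) (principalBlock M N) qN ∧
      (∀ θ : IrrCharacter N, (θ : N → ℂ) = 1 → qN θ = ![1, 0, 0]) ∧
      ∀ θ ∈ principalBlock M N, qN θ = ![1, 0, 0] → ∀ n : N, (n : G) = x → (θ : N → ℂ) n = 1

/-- **Piece F2b** (helper17). -/
def F2b : Prop :=
  ∀ (G : Type u) [Group G] [Finite G] (N : Subgroup G) [N.Normal], N.index = 2 → ∀ s₀ ∉ N,
    ∀ (B : Set (IrrCharacter G)) (BN : Set (IrrCharacter N)) (qN : IrrCharacter N → Fin 3 → ℤ),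
    NData N s₀ B BN qN → ∀ (χ₁ χ₀ : IrrCharacter G) (θ₁ θ₀ : IrrCharacter N), χ₁ ∈ B → χ₀ ∈ B →
    (∀ n : N, (χ₁ : G → ℂ) n = (θ₁ : N → ℂ) n) → (∀ n : N, (χ₀ : G → ℂ) n = (θ₀ : N → ℂ) n) → θ₀ ≠ θ₁ →
    ∃ (ι κ : Type) (_ : Fintype ι) (_ : Fintype κ) (q : ι → Fin 3 → ℤ) (s d : κ → Fin 3 → ℤ) (a b : ι),
      (∀ i j, 2 * ∑ n, q n i * q n j + ∑ n, s n i * s n j = 7 * ((if i = j then 1 else 0) + 2)) ∧
      (∀ i j, ∑ n, d n i * d n j = 7 * ((if i = j then 1 else 0) + 2)) ∧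
      (∀ n i, (2 : ℤ) ∣ s n i - d n i) ∧ (∀ n, (7 : ℤ) ∣ d n 0 + d n 1 + d n 2) ∧
      a ≠ b ∧ q a = qN θ₁ ∧ q b = qN θ₀ ∧ Nat.card B = 2 * Fintype.card ι + Fintype.card κ

end Cfsg.Agent.H23.LB
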